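import Cfsg.Agent.H646.ProjLat
import Cfsg.Agent.Blocks.CyclicUpper

/-!
# S4577: from the parity of the projective characters to all generalized characters (helper101)

`Par G B` : `∑_{χ ∈ B} N_χ² (ν(|G|) - ν(χ(1)))` is even for the characters `Ind_H^G λ`, `H` of odd order, `λ` linear,
`N_χ = ⟨Ind λ, χ⟩`;
`hpar_of_par` : then `∑_{χ ∈ B, ht χ odd} x_χ` is even, if the generalized character `∑_{χ ∈ B} x_χ χ` vanishes on the
elements of even order (the defect of `B` is even).
-/

set_option autoImplicit false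

namespace Cfsg.Agent.H101.KS

open Cfsg
open scoped ComplexConjugate
open Cfsg.Agent.Characters.Core Cfsg.Agent.Characters.Brauer Cfsg.Agent.H646.ProjLat

universe u

variable {G : Type u} [Group G]

/-- The parity of the projective characters `(Ind_H^G λ)_B`. -/
def Par (G : Type u) [Group G] [Fintype G] (B : Set (IrrCharacter G)) : Prop :=
  ∀ (H : Subgroup G) (lam : H →* ℂˣ), Odd (Nat.card H) → ∀ N : IrrCharacter G → ℕ,
    (∀ χ : IrrCharacter G, (N χ : ℂ) = classInner (indFun H (fun h => (lam h : ℂ))) (χ : G → ℂ)) →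
    Even (∑ᶠ χ ∈ B, N χ ^ 2 *
      ((Nat.card G).factorization 2 - (charDegree (χ : G → ℂ)).factorization 2))

/-- `∑_{χ ∈ B, ht χ odd} x_χ` is even for the generalized characters `∑_{χ ∈ B} x_χ χ` vanishing on the elements of even
order. -/
def HPar (G : Type u) [Group G] (B : Set (IrrCharacter G)) : Prop :=
  ∀ x : IrrCharacter G → ℤ, (∀ χ, χ ∉ B → x χ = 0) →
    (∀ g : G, 2 ∣ orderOf g → ∑ᶠ χ : IrrCharacter G, (x χ : ℂ) * (χ : G → ℂ) g = 0) →
    Even (∑ᶠ χ ∈ {χ : IrrCharacter G | χ ∈ B ∧ Odd (blockHeight 2 B (χ : G → ℂ))}, x χ)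

theorem isCharacter_lin (H : Subgroup G) (lam : H →* ℂˣ) : IsCharacter H (fun h => (lam h : ℂ)) :=
  Cfsg.Agent.Characters.Linear.isCharacter_hom lam

theorem even_of_par [Fintype G] {B : Set (IrrCharacter G)} (hpar : Par G B) {θ : G → ℂ}
    (hθ : IsGeneralizedCharacter G θ) (h0 : ∀ g, ¬ IsPRegular 2 g → θ g = 0) (m : IrrCharacter G → ℤ)
    (hm : ∀ χ : IrrCharacter G, classInner θ (χ : G → ℂ) = m χ) :
    Even (∑ᶠ χ ∈ B, m χ *
      (((Nat.card G).factorization 2 - (charDegree (χ : G → ℂ)).factorization 2 : ℕ) : ℤ)) := by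
  classical
  have : Fact (Nat.Prime 2) := ⟨Nat.prime_two⟩
  have : Finite (IrrCharacter G) := finite_irr
  have := Fintype.ofFinite (IrrCharacter G)
  have hmem := mem_closure_of_vanish 2 hθ h0
  clear hθ h0
  set dh : IrrCharacter G → ℕ := fun χ =>
    (Nat.card G).factorization 2 - (charDegree (χ : G → ℂ)).factorization 2 with hdh
  have key : ∀ ψ ∈ AddSubgroup.closure (linInd 2 G), ∃ m : IrrCharacter G → ℤ,
      (∀ χ : IrrCharacter G, classInner ψ (χ : G → ℂ) = m χ) ∧ Even (∑ᶠ χ ∈ B, m χ * (dh χ : ℤ)) := by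
    intro ψ hψ
    induction hψ using AddSubgroup.closure_induction with
    | mem x hx =>
      obtain ⟨H, lam, hH, rfl⟩ := hx
      have hch := isCharacter_indFun H (isCharacter_lin H lam)
      obtain ⟨N, hN⟩ := isCharacter_iff.1 hch
      have hN2 : ∀ χ : IrrCharacter G,
          (N χ : ℂ) = classInner (indFun H (fun h => (lam h : ℂ))) (χ : G → ℂ) := by
        intro χ
        rw [hN, classInner_sum_nsmul_irr]
      refine ⟨fun χ => N χ, fun χ => by rw [← hN2]; simp, ?_⟩
      have hodd : Odd (Nat.card H) := by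
        rw [← Nat.not_even_iff_odd]
        exact fun h => hH h.two_dvd
      have h2 := hpar H lam hodd N hN2
      rw [finsum_mem_eq_finite_toFinset_sum _ (Set.toFinite B)] at h2 ⊢
      have h2' : Even (∑ χ ∈ (Set.toFinite B).toFinset, (N χ : ℤ) ^ 2 * (dh χ : ℤ)) := by
        have := (Int.even_coe_nat _).2 h2
        push_cast at this
        simpa [hdh] using this
      have h3 : ∑ χ ∈ (Set.toFinite B).toFinset, (N χ : ℤ) ^ 2 * (dh χ : ℤ) -
          ∑ χ ∈ (Set.toFinite B).toFinset, (N χ : ℤ) * (dh χ : ℤ) =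
          ∑ χ ∈ (Set.toFinite B).toFinset, ((N χ : ℤ) * ((N χ : ℤ) - 1)) * (dh χ : ℤ) := by
        rw [← Finset.sum_sub_distrib]
        refine Finset.sum_congr rfl fun χ _ => ?_
        ring
      have h4 : Even (∑ χ ∈ (Set.toFinite B).toFinset, ((N χ : ℤ) * ((N χ : ℤ) - 1)) * (dh χ : ℤ)) := by
        refine Finset.even_sum _ fun χ _ => Even.mul_right ?_ _
        exact Int.even_mul_pred_self _
      rw [← h3] at h4
      rcases Int.even_or_odd (∑ χ ∈ (Set.toFinite B).toFinset, (N χ : ℤ) * (dh χ : ℤ)) with h | h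
      · exact h
      · exact absurd (h2'.sub_odd h) (Int.not_odd_iff_even.2 h4)
    | zero =>
      refine ⟨0, fun χ => ?_, ?_⟩
      · rw [classInner_zero_left]; simp
      · simp
    | add x y _ _ hx hy =>
      obtain ⟨a, ha, ha2⟩ := hx
      obtain ⟨b, hb, hb2⟩ := hy
      refine ⟨a + b, fun χ => ?_, ?_⟩
      · rw [classInner_add_left, ha, hb, Pi.add_apply, Int.cast_add]
      · rw [finsum_mem_eq_finite_toFinset_sum _ (Set.toFinite B)] at ha2 hb2 ⊢
        have h := ha2.add hb2
        rw [← Finset.sum_add_distrib] at h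
        have h2 : ∑ i ∈ (Set.toFinite B).toFinset, (a + b) i * (dh i : ℤ) =
            ∑ i ∈ (Set.toFinite B).toFinset, (a i * (dh i : ℤ) + b i * (dh i : ℤ)) :=
          Finset.sum_congr rfl fun i _ => by rw [Pi.add_apply]; ring
        rw [h2]
        exact h
    | neg x _ hx =>
      obtain ⟨a, ha, ha2⟩ := hx
      refine ⟨-a, fun χ => ?_, ?_⟩
      · rw [classInner_neg_left, ha, Pi.neg_apply, Int.cast_neg]
      · rw [finsum_mem_eq_finite_toFinset_sum _ (Set.toFinite B)] at ha2 ⊢
        have h := ha2.neg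
        rw [← Finset.sum_neg_distrib] at h
        have h2 : ∑ i ∈ (Set.toFinite B).toFinset, (-a) i * (dh i : ℤ) =
            ∑ i ∈ (Set.toFinite B).toFinset, -(a i * (dh i : ℤ)) :=
          Finset.sum_congr rfl fun i _ => by rw [Pi.neg_apply]; ring
        rw [h2]
        exact h
  obtain ⟨m', hm', h⟩ := key _ hmem
  have : m = m' := by
    funext χ
    have := (hm χ).symm.trans (hm' χ)
    exact_mod_cast this
  rw [this]
  exact h

theorem fac_le [Finite G] (χ : IrrCharacter G) :
    (charDegree (χ : G → ℂ)).factorization 2 ≤ (Nat.card G).factorization 2 :=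
  (Nat.factorization_le_iff_dvd (Cfsg.Agent.Blocks.Basic.charDegree_pos χ.2).ne' Nat.card_pos.ne').2
    (Cfsg.Agent.Blocks.CyclicUpper.charDegree_dvd χ.2) 2

theorem dh_eq [Finite G] {B : Set (IrrCharacter G)} {χ : IrrCharacter G} (hχ : χ ∈ B) :
    (Nat.card G).factorization 2 - (charDegree (χ : G → ℂ)).factorization 2 +
      blockHeight 2 B (χ : G → ℂ) = blockDefect 2 B := by
  have h1 := fac_le χ
  have h2 : sInf ((fun ψ : IrrCharacter G => (charDegree (ψ : G → ℂ)).factorization 2) '' B) ≤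
      (charDegree (χ : G → ℂ)).factorization 2 := Nat.sInf_le ⟨χ, hχ, rfl⟩
  unfold blockHeight blockDefect
  omega

/-- **The parity for the whole lattice.** -/
theorem hpar_of_par [Fintype G] {B : Set (IrrCharacter G)} (hd : Even (blockDefect 2 B)) (hpar : Par G B) :
    HPar G B := by
  classical
  intro x hx h0
  have : Finite (IrrCharacter G) := finite_irr
  have := Fintype.ofFinite (IrrCharacter G)
  set θ : G → ℂ := ∑ ψ : IrrCharacter G, x ψ • (ψ : G → ℂ) with hθ
  have h1 : IsGeneralizedCharacter G θ := isGeneralizedCharacter_iff.2 ⟨x, rfl⟩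
  have h2 := even_of_par hpar h1 (fun g hg => by
    have h3 := h0 g (by unfold IsPRegular at hg; exact not_not.1 hg)
    rw [finsum_eq_sum_of_fintype] at h3
    rw [← h3, hθ, Finset.sum_apply]
    refine Finset.sum_congr rfl fun χ _ => ?_
    rw [Pi.smul_apply, zsmul_eq_mul]) x (fun χ => classInner_sum_zsmul_irr x χ)
  rw [finsum_mem_eq_finite_toFinset_sum _ (Set.toFinite B)] at h2
  rw [finsum_mem_eq_finite_toFinset_sum _ (Set.toFinite _)]
  have h3 : (Set.toFinite {χ : IrrCharacter G | χ ∈ B ∧ Odd (blockHeight 2 B (χ : G → ℂ))}).toFinset =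
      (Set.toFinite B).toFinset.filter fun χ : IrrCharacter G => Odd (blockHeight 2 B (χ : G → ℂ)) := by
    ext χ
    simp
  rw [h3, Finset.sum_filter]
  set S := (Set.toFinite B).toFinset with hS
  have hSB : ∀ χ ∈ S, χ ∈ B := fun χ hχ => by simpa [hS] using hχ
  have h4 : Even (∑ χ ∈ S, ((if Odd (blockHeight 2 B (χ : G → ℂ)) then x χ else 0) - x χ *
      (((Nat.card G).factorization 2 - (charDegree (χ : G → ℂ)).factorization 2 : ℕ) : ℤ))) := by
    refine Finset.even_sum _ fun χ hχ => ?_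
    have h5 := dh_eq (hSB χ hχ)
    set k := (Nat.card G).factorization 2 - (charDegree (χ : G → ℂ)).factorization 2
    split_ifs with ho
    · have hk : Odd k := by
        rw [← h5] at hd
        exact (Nat.even_add'.1 hd).2 ho
      obtain ⟨c, hc⟩ := hk
      rw [hc]
      refine ⟨-x χ * c, ?_⟩
      push_cast
      ring
    · have hk : Even k := by
        rw [← h5] at hd
        exact (Nat.even_add.1 hd).2 (Nat.not_odd_iff_even.1 ho)
      obtain ⟨c, hc⟩ := hk
      rw [hc]
      refine ⟨-x χ * c, ?_⟩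
      push_cast
      ring
  have h6 := h4.add h2
  rw [← Finset.sum_add_distrib] at h6
  simpa using h6

/-- the version with a sum over all irreducible characters -/
theorem HPar.sum {B : Set (IrrCharacter G)} (h : HPar G B) [Fintype (IrrCharacter G)]
    [DecidablePred fun χ : IrrCharacter G => χ ∈ B ∧ Odd (blockHeight 2 B (χ : G → ℂ))] {x : IrrCharacter G → ℤ}
    (hx : ∀ χ, χ ∉ B → x χ = 0)
    (h0 : ∀ g : G, 2 ∣ orderOf g → ∑ χ : IrrCharacter G, (x χ : ℂ) * (χ : G → ℂ) g = 0) :
    Even (∑ χ : IrrCharacter G with χ ∈ B ∧ Odd (blockHeight 2 B (χ : G → ℂ)), x χ) := by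
  have h1 := h x hx (fun g hg => by rw [finsum_eq_sum_of_fintype]; exact h0 g hg)
  rw [finsum_mem_eq_finite_toFinset_sum _ (Set.toFinite _)] at h1
  have h3 : (Set.toFinite {χ : IrrCharacter G | χ ∈ B ∧ Odd (blockHeight 2 B (χ : G → ℂ))}).toFinset =
      Finset.univ.filter fun χ : IrrCharacter G => χ ∈ B ∧ Odd (blockHeight 2 B (χ : G → ℂ)) := by
    ext χ
    simp
  rwa [h3] at h1

end Cfsg.Agent.H101.KS
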