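import Cfsg.Agent.H101.KS.Glue
import Cfsg.Agent.H613.KS.Par
import Cfsg.Agent.S0150
import Cfsg.Agent.S0908

/-!
# S4577: the interface `H613/KS/Par.lean` (helper101)
-/

set_option autoImplicit false

namespace Cfsg.Agent.H101.KS

open Cfsg Cfsg.Agent.H613.KS
open scoped ComplexConjugate
open Cfsg.Agent.Characters.Core Cfsg.Agent.Characters.Brauer

universe u

theorem defect_four {G : Type u} [Group G] [Finite G] {M : Ideal AlgInt} (hM : IsPModular 2 M)
    {B : Set (IrrCharacter G)} (hB : IsPBlock M B) {D : Subgroup G} (hD : IsDefectGroup 2 M B D) (hE : E16 D) :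
    blockDefect 2 B = 4 := by
  have : Fact (Nat.Prime 2) := ⟨Nat.prime_two⟩
  have h := Cfsg.Agent.S0908.result 2 M hM B hB D hD
  rw [hE.card] at h
  exact (Nat.pow_right_injective (le_refl 2) (by simpa using h.symm : (2 : ℕ) ^ blockDefect 2 B = 2 ^ 4))

/-- `H613.KS.Par.HPar` from the parity of the projective characters. -/
theorem hPar_of (h : ∀ {G : Type u} [Group G] [Fintype G] {M : Ideal AlgInt} (_ : IsPModular 2 M)
    {B : Set (IrrCharacter G)} (_ : IsPBlock M B) {D : Subgroup G} (_ : IsDefectGroup 2 M B D) (_ : E16 D), Par G B) :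
    Cfsg.Agent.H613.KS.Par.HPar.{u} := by
  intro G _ _ M hM B hB D hD hE x hx h0
  have := Fintype.ofFinite G
  refine hpar_of_par (by rw [defect_four hM hB hD hE]; exact ⟨2, rfl⟩) (h hM hB hD hE) x hx fun g hg => h0 g ?_
  exact (even_iff_two_dvd.2 hg)

/-- the same from `H613.KS.Par.Par` -/
theorem hPar_of_Par (h : Cfsg.Agent.H613.KS.Par.Par.{u}) : Cfsg.Agent.H613.KS.Par.HPar.{u} := by
  refine hPar_of ?_
  intro G _ _ M hM B hB D hD hE H lam hH N hN
  classical
  have h1 := h hM hB hD hE H (fun h => (Nat.not_even_iff_odd.2 hH) (even_iff_two_dvd.2 h)) lam N ?_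
  · have h2 : ∑ᶠ χ ∈ B, N χ ^ 2 * ((Nat.card G).factorization 2 - (charDegree (χ : G → ℂ)).factorization 2) =
        ∑ᶠ χ ∈ B, N χ ^ 2 * (4 - blockHeight 2 B (χ : G → ℂ)) := by
      refine finsum_mem_congr rfl fun χ hχ => ?_
      have h3 := dh_eq (G := G) hχ
      rw [defect_four hM hB hD hE] at h3
      congr 1
      omega
    rw [h2]
    exact h1
  · intro χ
    have := Fintype.ofFinite H
    have h2 := hN χ
    rw [Cfsg.Agent.S0150.classInner_indFun _ _ _ (fun g h => isIrr_isClassFunction χ.2 g h)] at h2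
    have h3 : conj (N χ : ℂ) = (N χ : ℂ) := by rw [Complex.conj_natCast]
    rw [← h3, h2]
    unfold classInner
    rw [map_mul, map_inv₀, Complex.conj_natCast, map_sum, finsum_eq_sum_of_fintype]
    have h4 : (Nat.card H : ℂ) ≠ 0 := Nat.cast_ne_zero.2 Nat.card_pos.ne'
    field_simp
    refine Finset.sum_congr rfl fun x _ => ?_
    rw [map_mul, Complex.conj_conj, Units.val_inv_eq_inv_val]
    have h5 := Cfsg.Agent.Characters.Linear.norm_hom_apply lam x
    rw [mul_comm, Complex.inv_eq_conj h5]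

end Cfsg.Agent.H101.KS
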